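import Cfsg.Agent.H678.PV.Direct
import Cfsg.Agent.MFiveHN.Cent
import Cfsg.Agent.H600.AltIM
import Cfsg.Agent.S0399

/-!
# `Co1`, `p = 5` (helper678)

An element of order 5 with the centraliser `5 × (A₅ × A₅).2`.
-/

set_option autoImplicit false

namespace Cfsg.Agent.H678.PV

open Cfsg Subgroup
open scoped commutatorElement
open Cfsg.Agent.H665.NoPQ Cfsg.Agent.H713 Cfsg.Agent.H620.PNorm

universe u

theorem hasDZ_alt5 : HasDZ 5 (alternatingGroup (Fin 5)) := by
  have : Fact (Nat.Prime 5) := ⟨by norm_num⟩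
  have hc : Nat.card (alternatingGroup (Fin 5)) = 60 := by
    rw [nat_card_alternatingGroup, Nat.card_fin]; rfl
  exact hasDZ_of_im (by norm_num) (H600.AltDeg.im_alt le_rfl (by rw [hc]; norm_num)) (by rw [hc]; norm_num)

namespace CoFive

open Cfsg.Agent.MFiveHN Cfsg.Agent.MFiveHN.Cent

def f : ↥AA × ↥AA →* Spor.Co1 := KStr.prod comm_AA

theorem mem_of {a b : Spor.Co1} (ha : a ∈ AA) (hb : b ∈ AA) : a * (ww * b * ww⁻¹) ∈ f.range :=
  ⟨(⟨a, ha⟩, ⟨b, hb⟩), rfl⟩

theorem cen {a : Spor.Co1} (ha : a ∈ AA) (h : ∀ b ∈ AA, a * b = b * a) : a = 1 :=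
  KStr.center_trivial simple_AA card_AA ha h

theorem f_inj : Function.Injective f := by
  rw [injective_iff_map_eq_one]
  rintro ⟨a, b⟩ h
  have h1 : (a : Spor.Co1) * (ww * b * ww⁻¹) = 1 := h
  have h2 : (a : Spor.Co1) = ww * (b : Spor.Co1)⁻¹ * ww⁻¹ := by
    rw [eq_inv_of_mul_eq_one_left h1]; group
  have h3 : (a : Spor.Co1) = 1 := cen a.2 fun c hc' => by
    rw [h2]; exact (comm_AA c hc' _ (AA.inv_mem b.2)).symm
  rw [h3] at h2
  have h4 : (b : Spor.Co1)⁻¹ = 1 := by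
    calc (b : Spor.Co1)⁻¹ = ww⁻¹ * (ww * (b : Spor.Co1)⁻¹ * ww⁻¹) * ww := by group
      _ = 1 := by rw [← h2]; group
  exact Prod.ext (Subtype.ext h3) (Subtype.ext (inv_eq_one.1 h4))

theorem not_comm : ¬ IsMulCommutative ↥AA := by
  intro hc
  have h1 : AA = ⊥ := by
    rw [eq_bot_iff]
    intro a ha
    exact mem_bot.2 (cen ha fun b hb => congrArg Subtype.val (hc.is_comm.comm (⟨a, ha⟩ : ↥AA) ⟨b, hb⟩))
  have h2 := card_AA
  rw [h1, Subgroup.card_bot] at h2
  norm_num at h2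

theorem mem_left {a : Spor.Co1} (ha : a ∈ AA) : a ∈ f.range := by
  have h := mem_of ha AA.one_mem
  rwa [mul_one, mul_inv_cancel, mul_one] at h

theorem mem_right {b : Spor.Co1} (hb : b ∈ AA) : ww * b * ww⁻¹ ∈ f.range := by
  have h := mem_of AA.one_mem hb
  rwa [one_mul] at h

theorem simple' : IsSimpleGroup ↥AA := simple_AA

theorem perfect : ⁅f.range, f.range⁆ = f.range := by
  have := simple'
  have h0 : ⁅AA, AA⁆ = AA := perfect_of_simple not_comm
  have hl : AA ≤ f.range := fun x hx => mem_left hx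
  have hr : AA.map (MulAut.conj ww).toMonoidHom ≤ f.range := by
    rintro _ ⟨x, hx, rfl⟩; exact mem_right hx
  have hl' : AA ≤ ⁅f.range, f.range⁆ := h0.ge.trans (commutator_mono hl hl)
  have hr' : AA.map (MulAut.conj ww).toMonoidHom ≤ ⁅f.range, f.range⁆ := by
    refine le_trans (le_of_eq ?_) (commutator_mono hr hr)
    rw [← map_commutator, h0]
  refine le_antisymm ?_ ?_
  · rw [commutator_le]
    intro g hg h hh
    rw [commutatorElement_def]
    exact mul_mem (mul_mem (mul_mem hg hh) (inv_mem hg)) (inv_mem hh)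
  · rintro _ ⟨⟨a, b⟩, rfl⟩
    show (a : Spor.Co1) * (ww * b * ww⁻¹) ∈ _
    exact mul_mem (hl' a.2) (hr' ⟨b, b.2, rfl⟩)

theorem range_le : f.range ≤ centralizer ({xx} : Set Spor.Co1) := by
  rintro _ ⟨⟨a, b⟩, rfl⟩
  have hw : ww ∈ centralizer ({xx} : Set Spor.Co1) := mem_centralizer_singleton_iff.2 w_x
  exact mul_mem (AA_le a.2) (mul_mem (mul_mem hw (AA_le b.2)) (inv_mem hw))

theorem card_range : Nat.card ↥f.range = 3600 := by
  rw [← Nat.card_congr (MonoidHom.ofInjective f_inj).toEquiv, Nat.card_prod, card_AA]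

theorem center_range : ∀ z ∈ f.range, (∀ k ∈ f.range, z * k = k * z) → z = 1 := by
  rintro _ ⟨⟨a, b⟩, rfl⟩ h
  have h1 : (⟨a, b⟩ : ↥AA × ↥AA) = 1 := by
    refine Prod.ext (Subtype.ext (cen a.2 fun c hc => ?_)) (Subtype.ext (cen b.2 fun c hc => ?_))
    · have h2 := h _ (mem_left hc)
      have h3 := comm_AA c hc b b.2
      have h4 : (a : Spor.Co1) * (ww * b * ww⁻¹) * c = c * (a * (ww * b * ww⁻¹)) := h2
      have h5 : (a : Spor.Co1) * c * (ww * b * ww⁻¹) = c * a * (ww * b * ww⁻¹) := by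
        calc (a : Spor.Co1) * c * (ww * b * ww⁻¹) = a * (c * (ww * b * ww⁻¹)) := by group
          _ = a * (ww * b * ww⁻¹ * c) := by rw [h3]
          _ = a * (ww * b * ww⁻¹) * c := by group
          _ = _ := by rw [h4]; group
      exact mul_right_cancel h5
    · have h2 := h _ (mem_right hc)
      have h3 := comm_AA a a.2 c hc
      have h4 : (a : Spor.Co1) * (ww * b * ww⁻¹) * (ww * c * ww⁻¹) = (ww * c * ww⁻¹) * (a * (ww * b * ww⁻¹)) := h2
      have h5 : a * (ww * (b * c) * ww⁻¹) = a * (ww * (c * b) * ww⁻¹) := by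
        calc (a : Spor.Co1) * (ww * (b * c) * ww⁻¹) = a * (ww * b * ww⁻¹) * (ww * c * ww⁻¹) := by group
          _ = (ww * c * ww⁻¹) * (a * (ww * b * ww⁻¹)) := h4
          _ = ((ww * c * ww⁻¹) * a) * (ww * b * ww⁻¹) := by group
          _ = (a * (ww * c * ww⁻¹)) * (ww * b * ww⁻¹) := by rw [h3]
          _ = _ := by group
      exact mul_left_cancel (mul_right_cancel (mul_left_cancel h5))
  show f ⟨a, b⟩ = 1
  rw [h1, map_one]

theorem hasDZ : HasDZ 5 ↥f.range := by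
  obtain ⟨e⟩ := nonempty_equiv
  have h1 : HasDZ 5 ↥AA := hasDZ_congr e.symm hasDZ_alt5
  exact hasDZ_congr (MonoidHom.ofInjective f_inj) (hasDZ_prod h1 h1)

theorem card_cen : Nat.card ↥(centralizer ({xx} : Set Spor.Co1)) = 36000 := by
  have hq := Subgroup.card_eq_card_quotient_mul_card_subgroup (LThreeMB.Zx xx)
  rw [QuoStr.card_Zx order_x] at hq
  have h1 : Nat.card (↥(centralizer ({xx} : Set Spor.Co1)) ⧸ LThreeMB.Zx xx) = 7200 := quo.1
  rw [hq, h1]

theorem main : VOrdP 5 Spor.Co1 := by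
  have h5 : Fact (Nat.Prime 5) := ⟨by norm_num⟩
  have hc := Cfsg.Agent.S0399.result.2
  have : Finite Spor.Co1 := Nat.finite_of_card_ne_zero (by rw [hc]; norm_num)
  refine vOrdP_two (x := xx) (K := f.range) (n := 4) (by norm_num) order_x range_le
    (inf_eq_bot_of_center range_le center_range) perfect ?_ hasDZ ?_ ?_
  · rw [card_cen, card_range]
  · rw [hc]; norm_num
  · rw [card_cen]; norm_num

theorem fin : Finite Spor.Co1 := Nat.finite_of_card_ne_zero (by rw [Cfsg.Agent.S0399.result.2]; norm_num)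

end CoFive

/-- **`Co1`, `p = 5`.** -/
theorem co1_5 {K : Type u} [Group K] (h : Spor.IsoCo1 K) : VOrdP 5 K := by
  obtain ⟨e⟩ := h
  exact CoFive.main.mulEquiv e.symm

end Cfsg.Agent.H678.PV
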