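import Cfsg.Agent.H678.PV.Direct
import Cfsg.Agent.H678.HNT.Cent
import Cfsg.Agent.H513.HNF.AltDZ

/-!
# `HN`, `p = 3` (helper678)

An element of order 3 with the centraliser `3 × A₉`, and the character of degree 162 of `A₉`.
-/

set_option autoImplicit false

universe u

namespace Cfsg.Agent.H678.PV

open Subgroup Cfsg
open Cfsg.Agent.H620.PNorm
open Cfsg.Agent.CpAutHN.Pairs Cfsg.Agent.CpAutHN.Second Cfsg.Agent.CpAutHN.NineAlt
open Cfsg.Agent.H678.HNT.Cent

namespace HNThree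

/-- The subgroup `A₉` of `C(X1)`. -/
noncomputable def KK : Subgroup G := DD.map (centralizer ({X1} : Set G)).subtype

theorem KK_le : KK ≤ centralizer ({X1} : Set G) := by
  rintro _ ⟨d, -, rfl⟩
  exact d.2

noncomputable def eK : A9 ≃* ↥KK :=
  (MonoidHom.ofInjective Ψ_inj).trans
    (DD.equivMapOfInjective (centralizer ({X1} : Set G)).subtype Subtype.val_injective)

theorem card_KK : Nat.card ↥KK = 181440 := by
  rw [← Nat.card_congr eK.toEquiv]
  exact card_A9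

theorem inf_bot : zpowers X1 ⊓ KK = ⊥ := by
  rw [eq_bot_iff]
  rintro _ ⟨hx, ⟨_, ⟨a, rfl⟩, rfl⟩⟩
  obtain ⟨i, hi⟩ := mem_zpowers_iff.1 hx
  have h1 : Ψ a = xx ^ i := Subtype.ext hi.symm
  have h2 : Ψ a ∈ DD ⊓ pPrimeCore 2 C1 := ⟨⟨a, rfl⟩, by rw [h1]; exact (pPrimeCore 2 C1).zpow_mem xx_core i⟩
  rw [H678.HNT.inf_core DD two_dvd, mem_bot] at h2
  rw [h2]
  exact mem_bot.2 rfl

theorem card_C : Nat.card ↥(centralizer ({X1} : Set G)) ≤ 3 * Nat.card ↥KK := by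
  rw [card_KK, ← card_A9, ← order_xx, ← Nat.card_zpowers, ← Nat.card_prod]
  refine Nat.card_le_card_of_surjective
    (fun p : ↥(zpowers xx) × A9 => ((p.1 : C1) * Ψ p.2 : C1)) fun h => ?_
  obtain ⟨i, a, e⟩ := H678.HNT.Cent.main h
  exact ⟨(⟨xx ^ i, zpow_mem (mem_zpowers xx) i⟩, a), e.symm⟩

theorem main : VOrdP 3 G := by
  have hp : Fact (Nat.Prime 3) := ⟨Nat.prime_three⟩
  have hdz : Cfsg.Agent.H665.NoPQ.HasDZ 3 ↥KK := hasDZ_congr eK Cfsg.Agent.H513.HNF.hasDZ_A9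
  refine vOrdP_one order_X1 KK_le inf_bot card_C hdz (n := 6) ?_ ?_
  · rw [Cfsg.Agent.KFacts.HN.Classes.card_HN]
    norm_num
  · intro h
    have h1 : Nat.card ↥(centralizer ({X1} : Set G)) = 3 * Nat.card ↥KK := by
      refine le_antisymm card_C ?_
      rw [← order_X1, ← card_sup KK_le inf_bot]
      exact card_le_of_le (sup_le KK_le)
    rw [h1, card_KK] at h
    norm_num at h

end HNThree

/-- **`HN`, `p = 3`.** -/
theorem hn_3 {K : Type u} [Group K] (h : Spor.IsoHN K) : VOrdP 3 K := by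
  obtain ⟨e⟩ := h
  exact HNThree.main.mulEquiv e.symm

end Cfsg.Agent.H678.PV
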